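import Cfsg.Agent.OCT.AmA

/-! The case `q = 2`: uniqueness of the amalgam.  See `notes/OCT.md`. -/

set_option autoImplicit false
set_option linter.unusedSectionVars false
set_option linter.unusedSimpArgs false

namespace Cfsg.Agent.OCT

open OU

universe u v w

variable {K : Type u} [Field K] [Tits K] {G : Type v} [Group G]

/-- `m` is an involution of `N(Y)` interchanging `x₄` and `x₆`, and `A` is the image of `y₂` -/
structure Sw (c : CR K G) (m : G) (A : OU K) : Prop where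
  mm : m * m = 1
  br : c.u (X1 1) * m * c.u (X1 1) = m * c.u (X1 1) * m
  nT : ∀ a : OU K, a.x1 = 0 → ∃ b : OU K, b.x1 = 0 ∧ m * c.u a * m = c.u b
  s4 : m * c.u (X4 1) * m = c.u (X6 1)
  hA : m * c.u (Y2 1) * m = c.u A

section
variable {c : CR K G} {m : G} {a b a' b' : OU K}

theorem sw_mul (mm : m * m = 1) (h : m * c.u a * m = c.u b) (h' : m * c.u a' * m = c.u b') :
    m * c.u (a * a') * m = c.u (b * b') := by
  rw [map_mul, map_mul, ← h, ← h', show m * c.u a * m * (m * c.u a' * m) = m * c.u a * (m * m) * c.u a' * m by group,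
    mm]
  group

theorem sw_symm (mm : m * m = 1) (h : m * c.u a * m = c.u b) : m * c.u b * m = c.u a := by
  rw [← h, show m * (m * c.u a * m) * m = (m * m) * c.u a * (m * m) by group, mm]
  group

theorem sw_inv (mm : m * m = 1) (h : m * c.u a * m = c.u b) : m * c.u a⁻¹ * m = c.u b⁻¹ := by
  rw [map_inv, map_inv, ← h, mul_inv_rev, mul_inv_rev, inv_eq_of_mul_eq_one_right mm, mul_assoc]

theorem sw_uniq (h : m * c.u a * m = c.u b) (h' : m * c.u a' * m = c.u b') (e : a = a') : b = b' :=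
  c.inj (by rw [← h, ← h', e])

theorem sw_one (mm : m * m = 1) : m * c.u 1 * m = c.u 1 := by rw [map_one, mul_one, mm]
end

namespace Sw

variable {c c' : CR K G} {m : G} {A : OU K}

theorem fix (s : Sw c m A) : m * c.u (X1 1 * A * X1 1) * m = c.u (X1 1 * A * X1 1) := by
  have xx : c.u (X1 1) * c.u (X1 1) = 1 := by
    rw [← map_mul, ← map_one c.u]; congr 1; ext <;> simp [CharTwo.add_self_eq_zero]
  have xy : c.u (X1 1) * c.u (Y2 1) * c.u (X1 1) = c.u (Y2 1) := by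
    rw [← map_mul, ← map_mul]; congr 1; ext <;> simp [CharTwo.add_self_eq_zero]
  rw [map_mul, map_mul, ← s.hA]
  calc m * (c.u (X1 1) * (m * c.u (Y2 1) * m) * c.u (X1 1)) * m
      = (m * c.u (X1 1) * m) * c.u (Y2 1) * (m * c.u (X1 1) * m) := by group
    _ = c.u (X1 1) * (m * (c.u (X1 1) * c.u (Y2 1) * c.u (X1 1)) * m) * c.u (X1 1) := by rw [← s.br]; group
    _ = _ := by rw [xy]

theorem conj (s : Sw c m A) (t : OU K) (h0 : t.x1 = 0) (h1 : t * X1 1 * t⁻¹ = X1 1) (h2 : t⁻¹ * Y2 1 * t = Y2 1) :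
    Sw c (c.u t * m * (c.u t)⁻¹) (t * A * t⁻¹) := by
  have k : ∀ a b : OU K, m * c.u (t⁻¹ * a * t) * m = c.u b →
      c.u t * m * (c.u t)⁻¹ * c.u a * (c.u t * m * (c.u t)⁻¹) = c.u (t * b * t⁻¹) := fun a b e => by
    simp only [map_mul, map_inv] at e ⊢
    rw [← e]; group
  refine ⟨?_, ?_, fun a ha => ?_, ?_, k _ _ (by rw [h2, s.hA])⟩
  · rw [show c.u t * m * (c.u t)⁻¹ * (c.u t * m * (c.u t)⁻¹) = c.u t * (m * m) * (c.u t)⁻¹ by group, s.mm]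
    group
  · have e := congrArg c.u h1
    simp only [map_mul, map_inv] at e
    have := congrArg (fun x => c.u t * x * (c.u t)⁻¹) s.br
    rw [← e]
    convert this using 1 <;> group
  · obtain ⟨b, hb, e⟩ := s.nT (t⁻¹ * a * t) (by simp [h0, ha])
    exact ⟨_, by simp [h0, hb], k _ _ e⟩
  · have e4 : t⁻¹ * X4 1 * t = X4 1 := by simpa using bru_cZ t⁻¹ (x := X4 1) (by simp)
    have e6 : t * X6 1 * t⁻¹ = X6 1 := by
      rw [mul_inv_eq_iff_eq_mul]; exact sT_sY_comm (a := t) h0 (by simp)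
    rw [k _ _ (by rw [e4, s.s4]), e6]

theorem tw (s : Sw c m A) {β : OU K → OU K} (hc : ∀ a, c'.u a = c.u (β a)) (ββ : ∀ a, β (β a) = a)
    (h0 : ∀ a, (β a).x1 = a.x1) (h1 : β (X1 1) = X1 1) (h4 : β (X4 1) = X4 1) (h6 : β (X6 1) = X6 1) {A' : OU K}
    (hA : m * c.u (β (Y2 1)) * m = c.u A') : Sw c' m (β A') := by
  refine ⟨s.mm, by rw [hc, h1]; exact s.br, fun a ha => ?_, by rw [hc, hc, h4, h6, s.s4], by rw [hc, hc, ββ, hA]⟩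
  obtain ⟨b, hb, e⟩ := s.nT (β a) (by rw [h0, ha])
  exact ⟨β b, by rw [h0, hb], by rw [hc, hc, ββ, e]⟩

variable [Finite K]

theorem base (s : Sw c m A) (hq : Nat.card K = 2) : A.x1 = 0 ∧ A.y2 = 0 ∧ A.y8 = 1 := by
  have h01 := TwoA.zero_or_one hq
  have mi : m⁻¹ = m := inv_eq_of_mul_eq_one_right s.mm
  have h1 : A.x1 = 0 := by
    obtain ⟨b, hb, e⟩ := s.nT (Y2 1) rfl
    rw [← sw_uniq e s.hA rfl, hb]
  have hT : (c.cj m).S sT = c.S sT := by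
    refine le_antisymm ?_ ?_
    · rintro _ ⟨a, ha, rfl⟩
      obtain ⟨b, hb, e⟩ := s.nT a ha
      exact ⟨b, hb, by rw [CR.cj_u, mi, e]⟩
    · rintro _ ⟨a, ha, rfl⟩
      obtain ⟨b, hb, e⟩ := s.nT a ha
      exact ⟨b, hb, by rw [CR.cj_u, mi, sw_symm s.mm e]⟩
  obtain ⟨F, hF, e⟩ := (CR.I_eq_of_T hT).le ((c.cj m).u_mem_S.2 (show (X5 1 : OU K) ∈ (sI : Subgroup (OU K)) by simp))
  rw [CR.cj_u, mi] at e
  have k := sw_uniq (sw_mul s.mm s.hA e.symm) (sw_mul s.mm s.s4 (sw_mul s.mm e.symm s.hA))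
    (by ext <;> simp [CharTwo.add_self_eq_zero])
  replace hF := mem_sI.1 hF
  have k4 := congrArg OU.x4 k
  have k6 := congrArg OU.x6 k
  simp [hF, h1] at k4 k6
  have e5 : F.x5 * A.y8 = 1 := by grind
  have e2 : F.x5 * A.y2 = 0 := by grind
  rcases h01 F.x5 with e | e <;> simp_all

/-- the normalized situation -/
theorem fin (s : Sw c m A) (hq : Nat.card K = 2) (h3 : A.x3 = 0) (h4 : A.y4 = 0) (h4' : A.x4 = 0) (h5 : A.x5 = 0)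
    (h6 : A.y6 = 0) (h6' : A.x6 = 0) : A = Y8 1 := by
  have h01 := TwoA.zero_or_one hq
  obtain ⟨h1, h2, h8⟩ := s.base hq
  have a2 := sw_mul s.mm s.hA s.hA
  have k := sw_uniq (sw_mul s.mm a2 a2) (sw_one s.mm) (by ext <;> simp [CharTwo.add_self_eq_zero])
  obtain ⟨r, p, q, rfl⟩ : ∃ r p q, A = ⟨0, 0, r, 0, 0, 0, 0, 0, 0, p, 1, q⟩ :=
    ⟨A.x2, A.x7, A.x8, by ext <;> simp [*]⟩
  obtain rfl : r = 0 := by
    have := congrArg OU.x6 k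
    simp [TwoA.σ_eq h01, CharTwo.add_self_eq_zero] at this
    have := TwoA.sq_eq h01 r
    grind
  have w := sw_mul s.mm (sw_mul s.mm s.hA (sw_symm s.mm s.hA)) (sw_inv s.mm s.fix)
  have h11 : (1 + 1 : K) = 0 := CharTwo.add_self_eq_zero _
  rcases h01 p with rfl | rfl <;> rcases h01 q with rfl | rfl
  · rfl
  all_goals exfalso
  · have eB : (X1 1 * ⟨0, 0, 0, 0, 0, 0, 0, 0, 0, 0, 1, 1⟩ * X1 1 : OU K) = ⟨0, 1, 1, 1, 1, 0, 1, 0, 1, 1, 1, 1⟩ := by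
      ext <;> simp [h11]
    rw [eB] at w
    rw [show (Y2 1 * ⟨0, 0, 0, 0, 0, 0, 0, 0, 0, 0, 1, 1⟩ * (⟨0, 1, 1, 1, 1, 0, 1, 0, 1, 1, 1, 1⟩ : OU K)⁻¹ : OU K) =
        ⟨0, 0, 1, 0, 1, 1, 0, 0, 1, 1, 0, 0⟩ by ext <;> simp [h11],
      show (⟨0, 0, 0, 0, 0, 0, 0, 0, 0, 0, 1, 1⟩ * Y2 1 * (⟨0, 1, 1, 1, 1, 0, 1, 0, 1, 1, 1, 1⟩ : OU K)⁻¹ : OU K) =
        ⟨0, 0, 1, 0, 0, 1, 0, 1, 0, 0, 0, 0⟩ by ext <;> simp [h11]] at w
    have := congrArg OU.x6 (sw_uniq (sw_mul s.mm w w) (sw_symm s.mm s.s4) (by ext <;> simp [h11]))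
    simp [h11] at this
  · have eB : (X1 1 * ⟨0, 0, 0, 0, 0, 0, 0, 0, 0, 1, 1, 0⟩ * X1 1 : OU K) = ⟨0, 1, 0, 0, 0, 1, 1, 1, 0, 0, 1, 0⟩ := by
      ext <;> simp [h11]
    rw [eB] at w
    rw [show (Y2 1 * ⟨0, 0, 0, 0, 0, 0, 0, 0, 0, 1, 1, 0⟩ * (⟨0, 1, 0, 0, 0, 1, 1, 1, 0, 0, 1, 0⟩ : OU K)⁻¹ : OU K) =
        ⟨0, 0, 0, 0, 0, 0, 0, 1, 0, 1, 0, 0⟩ by ext <;> simp [h11],
      show (⟨0, 0, 0, 0, 0, 0, 0, 0, 0, 1, 1, 0⟩ * Y2 1 * (⟨0, 1, 0, 0, 0, 1, 1, 1, 0, 0, 1, 0⟩ : OU K)⁻¹ : OU K) =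
        ⟨0, 0, 0, 0, 1, 1, 1, 0, 1, 1, 0, 0⟩ by ext <;> simp [h11]] at w
    have := congrArg OU.x6 (sw_uniq (sw_mul s.mm w w) (sw_symm s.mm s.s4) (by ext <;> simp [h11]))
    simp [h11] at this
  · have eB : (X1 1 * ⟨0, 0, 0, 0, 0, 0, 0, 0, 0, 1, 1, 1⟩ * X1 1 : OU K) = ⟨0, 1, 1, 0, 1, 1, 1, 0, 1, 0, 1, 1⟩ := by
      ext <;> simp [h11]
    rw [eB] at w
    rw [show (Y2 1 * ⟨0, 0, 0, 0, 0, 0, 0, 0, 0, 1, 1, 1⟩ * (⟨0, 1, 1, 0, 1, 1, 1, 0, 1, 0, 1, 1⟩ : OU K)⁻¹ : OU K) =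
        ⟨0, 0, 1, 1, 1, 0, 0, 0, 1, 1, 0, 0⟩ by ext <;> simp [h11],
      show (⟨0, 0, 0, 0, 0, 0, 0, 0, 0, 1, 1, 1⟩ * Y2 1 * (⟨0, 1, 1, 0, 1, 1, 1, 0, 1, 0, 1, 1⟩ : OU K)⁻¹ : OU K) =
        ⟨0, 0, 1, 1, 0, 1, 1, 1, 0, 0, 0, 0⟩ by ext <;> simp [h11]] at w
    have := congrArg OU.x6 (sw_uniq (sw_mul s.mm w w) (sw_symm s.mm s.s4) (by ext <;> simp [h11]))
    simp [h11] at this

/-- in the normalized situation `m` acts by `mu` -/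
theorem mu_eq (s : Sw c m (Y8 1)) (hq : Nat.card K = 2) (a : OU K) (ha : a.x1 = 0) :
    m * c.u a * m = c.u (OU.mu a) := by
  have h01 := TwoA.zero_or_one hq
  have h11 : (1 + 1 : K) = 0 := CharTwo.add_self_eq_zero _
  let E : Subgroup (OU K) :=
    { carrier := {a | a.x1 = 0 ∧ m * c.u a * m = c.u (OU.mu a)}
      mul_mem' := fun {a b} ha hb => ⟨by simp [ha.1, hb.1], by rw [mu_mul ha.1 hb.1]; exact sw_mul s.mm ha.2 hb.2⟩
      one_mem' := ⟨rfl, by rw [show OU.mu (1 : OU K) = 1 by ext <;> simp]; exact sw_one s.mm⟩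
      inv_mem' := fun {a} ha => ⟨by simp [ha.1], by
        rw [show OU.mu a⁻¹ = (OU.mu a)⁻¹ from eq_inv_of_mul_eq_one_left (by
          rw [← mu_mul (by simp [ha.1]) ha.1, inv_mul_cancel]; ext <;> simp)]
        exact sw_inv s.mm ha.2⟩ }
  have y2 : Y2 1 ∈ E := ⟨rfl, by rw [s.hA]; congr 1; ext <;> simp⟩
  have y8 : Y8 1 ∈ E := ⟨rfl, by rw [sw_symm s.mm s.hA]; congr 1; ext <;> simp⟩
  have x4 : X4 1 ∈ E := ⟨rfl, by rw [s.s4]; congr 1; ext <;> simp⟩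
  have x6 : X6 1 ∈ E := ⟨rfl, by rw [sw_symm s.mm s.s4]; congr 1; ext <;> simp⟩
  have eB : (X1 1 * Y8 1 * X1 1 : OU K) = ⟨0, 1, 0, 1, 0, 1, 1, 1, 1, 1, 1, 0⟩ := by ext <;> simp [h11]
  have hB : (⟨0, 1, 0, 1, 0, 1, 1, 1, 1, 1, 1, 0⟩ : OU K) ∈ E :=
    ⟨rfl, by rw [← eB, s.fix, eB]; congr 1; ext <;> simp [h11]⟩
  have x2 : X2 1 ∈ E := (show (Y2 1 * Y2 1 : OU K) = X2 1 by ext <;> simp [h11]) ▸ mul_mem y2 y2
  have x8 : X8 1 ∈ E := (show (Y8 1 * Y8 1 : OU K) = X8 1 by ext <;> simp [h11]) ▸ mul_mem y8 y8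
  have cm : ∀ {a b z : OU K}, a ∈ E → b ∈ E → a * b = z * (b * a) → z ∈ E := fun {a b z} ha hb e =>
    (mul_mem_cancel_right (mul_mem hb ha)).1 (e ▸ mul_mem ha hb)
  have x5 : X5 1 ∈ E := (mul_mem_cancel_left x4).1 ((mul_mem_cancel_right x6).1
    (cm x2 x8 (by ext <;> simp [h11])))
  have x3 : X3 1 ∈ E := (mul_mem_cancel_right x5).1 ((mul_mem_cancel_right x6).1
    (cm x2 y8 (by ext <;> simp [h11])))
  have x7 : X7 1 ∈ E := (mul_mem_cancel_left (mul_mem x4 x5)).1 (cm y2 x8 (by ext <;> simp [h11]))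
  have y6 : Y6 1 ∈ E := by
    rw [nf (⟨0, 1, 0, 1, 0, 1, 1, 1, 1, 1, 1, 0⟩ : OU K)] at hB
    simp only [show (X1 0 : OU K) = 1 from rfl, show (X2 0 : OU K) = 1 from rfl, show (Y4 0 : OU K) = 1 from rfl,
      show (X8 0 : OU K) = 1 from rfl, one_mul, mul_one] at hB
    rwa [mul_mem_cancel_left y2, mul_mem_cancel_left x3, mul_mem_cancel_left x4, mul_mem_cancel_left x5,
      mul_mem_cancel_right (mul_mem x6 (mul_mem x7 y8))] at hB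
  have y4 : Y4 1 ∈ E := (mul_mem_cancel_right (mul_mem x5 (mul_mem y6 x6))).1 (cm y2 y8 (by ext <;> simp [h11]))
  have k : ∀ (X : K → OU K) (t : K), X 0 = 1 → X 1 ∈ E → X t ∈ E := fun X t h0 h1 => by
    rcases h01 t with rfl | rfl
    exacts [h0 ▸ one_mem E, h1]
  have : a ∈ E := by
    rw [nf a, ha]
    exact mul_mem (one_mem E) (mul_mem (k _ _ rfl y2) (mul_mem (k _ _ rfl x2) (mul_mem (k _ _ rfl x3)
      (mul_mem (k _ _ rfl y4) (mul_mem (k _ _ rfl x4) (mul_mem (k _ _ rfl x5) (mul_mem (k _ _ rfl y6)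
      (mul_mem (k _ _ rfl x6) (mul_mem (k _ _ rfl x7) (mul_mem (k _ _ rfl y8) (k _ _ rfl x8)))))))))))
  exact this.2

end Sw

end Cfsg.Agent.OCT
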