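import Cfsg.Agent.OCT.AmB

/-! The case `q = 2`: the second parabolic subgroup.  See `notes/OCT.md`. -/

set_option autoImplicit false
set_option linter.unusedSectionVars false
set_option linter.unusedSimpArgs false

namespace Cfsg.Agent.OCT

open OU

universe u v w

variable {K : Type u} [Field K] [Tits K] {G : Type v} [Group G] [Finite K] {c : CR K G} {m : G} {A : OU K}

theorem Sw.fr0 (s : Sw c m (Y8 1)) (hq : Nat.card K = 2) : ∃ f : FR0 K G, f.toCR = c := by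
  have hk : ∀ k : Kˣ × Kˣ, k = 1 := fun k => Prod.ext (q2_unit hq _) (q2_unit hq _)
  refine ⟨{ c with
    h := 1
    hu := fun k a => by rw [hk k]; simp [tor_one]
    hd := fun s => c.q2_d hq s
    nh := fun _ _ => by simp [c.nn]
    m := m
    mm := s.mm
    mu := s.mu_eq hq
    mh := fun _ _ => by simp [s.mm]
    sl := fun t => by
      obtain rfl := q2_unit hq t
      have xx : c.u (X1 1) * c.u (X1 1) = 1 := by
        rw [← map_mul, ← map_one c.u]; congr 1; ext <;> simp [CharTwo.add_self_eq_zero]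
      simp only [inv_one, Units.val_one, MonoidHom.one_apply, one_mul]
      rw [← s.br, show c.u (X1 1) * (c.u (X1 1) * m * c.u (X1 1)) * c.u (X1 1) =
        (c.u (X1 1) * c.u (X1 1)) * m * (c.u (X1 1) * c.u (X1 1)) by group, xx, one_mul, mul_one] }, rfl⟩

/-- the goal of the amalgam step -/
def AmOk (c : CR K G) : Prop := ∃ f : FR0 K G, f.toCR.C = c.C ∧ f.toCR.τ = c.τ

theorem Sw.ok4 (s : Sw c m A) (hq : Nat.card K = 2) (h3 : A.x3 = 0) (h4 : A.y4 = 0) (h5 : A.x5 = 0)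
    (h6 : A.y6 = 0) : AmOk c := by
  have h01 := TwoA.zero_or_one hq
  have h11 : (1 + 1 : K) = 0 := CharTwo.add_self_eq_zero _
  obtain ⟨h1, h2, h8⟩ := s.base hq
  obtain ⟨c', hC, hu⟩ := c.exists_twC hq (A.x4 + A.x6) A.x6
  have e4 : amC h01 (A.x4 + A.x6) A.x6 (X4 1) = X4 1 := by ext <;> simp [amC_apply]
  have hz : m * c.u (X4 A.x6) * m = c.u (X6 A.x6) := by
    rcases h01 A.x6 with e | e <;> rw [e]
    exacts [sw_one s.mm, s.s4]
  have s' := s.tw hu (fun a => by ext <;> simp [amC_apply]; grind) (fun _ => rfl) (by ext <;> simp [amC_apply]) e4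
    (by ext <;> simp [amC_apply]) (A' := A * X6 A.x6) (by
      rw [← sw_mul s.mm s.hA hz]; congr 3; ext <;> simp [amC_apply])
  have e := s'.fin hq (by simp [amC_apply, h3]) (by simp [amC_apply, h4])
    (by simp [amC_apply, h2, h4, h6, h8]; grind) (by simp [amC_apply, h5]) (by simp [amC_apply, h6])
    (by simp [amC_apply, CharTwo.add_self_eq_zero])
  rw [e] at s'
  obtain ⟨f, rfl⟩ := s'.fr0 hq
  exact ⟨f, hC, (hu _).trans (congrArg c.u e4)⟩

theorem Sw.ok3 (s : Sw c m A) (hq : Nat.card K = 2) (h3 : A.x3 = 0) (h4 : A.y4 = 0) (h6 : A.y6 = 0) : AmOk c := by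
  have h01 := TwoA.zero_or_one hq
  obtain ⟨h1, h2, h8⟩ := s.base hq
  refine (s.conj (X3 A.x5) rfl ?_ ?_).ok4 hq ?_ ?_ ?_ ?_
  · ext <;> simp [CharTwo.add_self_eq_zero]
  · ext <;> simp [CharTwo.add_self_eq_zero]
  all_goals simp [h1, h2, h3, h4, h6, h8, TwoA.σ_eq h01, CharTwo.add_self_eq_zero]

theorem Sw.ok2 (s : Sw c m A) (hq : Nat.card K = 2) (h4 : A.y4 = 0) (h6 : A.y6 = 0) : AmOk c := by
  have h01 := TwoA.zero_or_one hq
  obtain ⟨h1, h2, h8⟩ := s.base hq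
  refine (s.conj (X2 A.x3) rfl ?_ ?_).ok3 hq ?_ ?_ ?_
  · ext <;> simp [CharTwo.add_self_eq_zero]
  · ext <;> simp [CharTwo.add_self_eq_zero]
  all_goals simp [h1, h2, h4, h6, h8, TwoA.σ_eq h01, CharTwo.add_self_eq_zero]

theorem Sw.ok1 (s : Sw c m A) (hq : Nat.card K = 2) (h : A.y4 = A.y6) : AmOk c := by
  have h01 := TwoA.zero_or_one hq
  obtain ⟨h1, h2, h8⟩ := s.base hq
  refine (s.conj (Y2 A.y6) rfl ?_ ?_).ok2 hq ?_ ?_
  · ext <;> simp [CharTwo.add_self_eq_zero]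
  · rcases h01 A.y6 with e | e <;> rw [e] <;> ext <;> simp [CharTwo.add_self_eq_zero]
  all_goals simp [h1, h2, h, h8, TwoA.σ_eq h01, CharTwo.add_self_eq_zero]

theorem Sw.ok (s : Sw c m A) (hq : Nat.card K = 2) : AmOk c := by
  have h01 := TwoA.zero_or_one hq
  have h11 : (1 + 1 : K) = 0 := CharTwo.add_self_eq_zero _
  by_cases h : A.y4 = A.y6
  · exact s.ok1 hq h
  obtain ⟨h1, h2, h8⟩ := s.base hq
  obtain ⟨c', hC, hu⟩ := c.exists_twF hq
  have e4 : amF (X4 1 : OU K) = X4 1 := by ext <;> simp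
  have s' := s.tw hu (fun a => by have := TwoA.sq_eq h01 a.y8; ext <;> simp <;> grind) (fun _ => rfl)
    (by ext <;> simp) e4 (by ext <;> simp) (A' := A⁻¹) (by
      rw [← sw_inv s.mm s.hA]; congr 3; ext <;> simp)
  obtain ⟨f, e1, e2⟩ := s'.ok1 hq (by
    simp [h1, h2, h8]
    rcases h01 A.y4 with e | e <;> rcases h01 A.y6 with e' | e' <;> simp_all)
  exact ⟨f, e1.trans hC, e2.trans ((hu _).trans (congrArg c.u e4))⟩

theorem Hy.exists_sw [Finite G] (h : Hy c) (hq : Nat.card K = 2) (hg : IsConj c.τ (c.u (X6 1))) :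
    ∃ m A, Sw c m A := by
  have h01 := TwoA.zero_or_one hq
  have h11 : (1 + 1 : K) = 0 := CharTwo.add_self_eq_zero _
  obtain ⟨g, l, -⟩ := h.line hg
  obtain ⟨x, hx⟩ : ∃ x, x = c.u (X1 1) := ⟨_, rfl⟩
  obtain ⟨x', hx'⟩ : ∃ x', x' = (c.cj g).u (X1 1) := ⟨_, rfl⟩
  have e1 : (X1 1 : OU K) * X1 1 = 1 := by ext <;> simp [h11]
  have xx : x * x = 1 := by rw [hx, ← map_mul, e1, map_one]
  have xx' : x' * x' = 1 := by rw [hx', ← map_mul, e1, map_one]
  have cY : ∀ {w : G}, (∀ a b, w * c.u (EY a b) * w⁻¹ = c.u (EY a b)) → w ∈ c.S sT := fun {w} hw =>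
    h.cent_Y (by
      rintro _ ⟨y, hy, rfl⟩
      rw [eq_EY hy]
      exact mul_inv_eq_iff_eq_mul.1 (hw _ _))
  have ax : ∀ a b, x * c.u (EY a b) * x⁻¹ = c.u (EY (a + b) b) := fun a b => by
    rw [hx, c.conj_EY]; simp
  have ax' : ∀ a b, x' * c.u (EY a b) * x'⁻¹ = c.u (EY a (b + a)) := by
    obtain ⟨s, hs⟩ := l.act x' (hx' ▸ (c.cj g).u_mem_U _)
    rcases h01 s with rfl | rfl
    · have := cY (w := x') fun a b => by rw [hs]; simp
      rw [← l.T', hx', CR.u_mem_S] at this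
      simp at this
    · simpa using hs
  have ar : ∀ a b, x * x' * c.u (EY a b) * (x * x')⁻¹ = c.u (EY b (a + b)) := fun a b => by
    rw [show x * x' * c.u (EY a b) * (x * x')⁻¹ = x * (x' * c.u (EY a b) * x'⁻¹) * x⁻¹ by group, ax', ax]
    congr 2 <;> grind
  have nN : ∀ {w : G}, (∀ t ∈ c.S sT, w * t * w⁻¹ ∈ c.S sT) → w ∈ Subgroup.normalizer (c.S sT : Set G) :=
    fun {w} hw => Subgroup.mem_normalizer_fintype hw
  have hxN := nN (w := x) fun t ht => c.conj_B_T (hx ▸ c.bru_u_mem_B _) ht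
  have hxN' := nN (w := x') fun t ht => by
    rw [← l.T'] at ht ⊢
    exact (c.cj g).conj_B_T (hx' ▸ (c.cj g).bru_u_mem_B _) ht
  have xi : x⁻¹ = x := inv_eq_of_mul_eq_one_right xx
  have inv : x * (x * x') * x⁻¹ = (x * x')⁻¹ := by
    rw [← mul_assoc, xx, one_mul, mul_inv_rev, inv_eq_of_mul_eq_one_right xx']
  have rN := mul_mem hxN hxN'
  generalize x * x' = r at ar inv rN
  have r3 : r ^ 3 ∈ c.S sT := cY fun a b => by
    rw [show r ^ 3 * c.u (EY a b) * (r ^ 3)⁻¹ = r * (r * (r * c.u (EY a b) * r⁻¹) * r⁻¹) * r⁻¹ by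
      rw [pow_three]; group, ar, ar, ar]
    congr 2 <;> grind
  obtain ⟨j, hj⟩ := c.two_U (c.S_le_U _ r3)
  obtain ⟨k, hk⟩ : ∃ k, 2 ^ j * 2 ^ j = 3 * k + 1 := by
    refine ⟨2 ^ j * 2 ^ j / 3, ?_⟩
    have : 2 ^ j * 2 ^ j % 3 = 1 := by rw [← mul_pow, Nat.pow_mod]; simp
    omega
  obtain ⟨f, hf⟩ : ∃ f, f = r ^ (3 * k + 1) := ⟨_, rfl⟩
  have f3 : f * f = f⁻¹ := eq_inv_of_mul_eq_one_left (by
    rw [← pow_three', hf, ← pow_mul, ← hk, mul_comm _ 3, pow_mul, pow_mul, hj, one_pow])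
  have fi : x * f * x = f⁻¹ := by
    rw [hf, ← inv_pow, ← inv, conj_pow, xi]
  have mm : f * x * (f * x) = 1 := by
    rw [show f * x * (f * x) = f * (x * f * x) by group, fi, mul_inv_cancel]
  have mi : (f * x)⁻¹ = f * x := inv_eq_of_mul_eq_one_right mm
  have nT : ∀ a : OU K, a.x1 = 0 → ∃ b : OU K, b.x1 = 0 ∧ f * x * c.u a * (f * x) = c.u b := fun a ha => by
    obtain ⟨b, hb, e⟩ := (Subgroup.mem_normalizer_iff.1 (mul_mem (hf ▸ pow_mem rN _) hxN) (c.u a)).1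
      (c.u_mem_S.2 ha)
    exact ⟨b, hb, by rw [e, mi]⟩
  obtain ⟨A, -, hA⟩ := nT (Y2 1) rfl
  refine ⟨f * x, A, mm, ?_, nT, ?_, hA⟩
  · rw [← hx, ← mul_assoc, fi, mul_assoc f, xx, mul_one, ← mul_assoc, f3]
  · obtain ⟨t, ht, et⟩ := pow_mem r3 k
    nth_rewrite 2 [← mi]
    rw [X4_eq, X6_eq, hf, pow_succ, pow_mul, ← et, show c.u t * r * x * c.u (EY 1 0) * (c.u t * r * x)⁻¹ =
      c.u t * (r * (x * c.u (EY 1 0) * x⁻¹) * r⁻¹) * (c.u t)⁻¹ by group, ax, ar, c.conj_EY, mem_sT.1 ht]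
    simp

theorem Hy.exists_FR0_two [Finite G] (h : Hy c) (hq : Nat.card K = 2) (hg : IsConj c.τ (c.u (X6 1))) :
    ∃ f : FR0 K G, f.toCR.C = c.C ∧ f.toCR.τ = c.τ := by
  obtain ⟨m, A, s⟩ := h.exists_sw hq hg
  exact s.ok hq

end Cfsg.Agent.OCT
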