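import Cfsg.Agent.OCT.Inv
import Cfsg.Agent.OCT.Q2a

set_option autoImplicit false
set_option linter.unusedSectionVars false

namespace Cfsg.Agent.OCT

open OU

universe u v w

variable {K : Type u} [Field K] [Tits K] {G : Type v} [Group G]

/-- the points of the apartment -/
def r3P (f : FR0 K G) (j : ℤ) : G := (f.m * f.n) ^ j * f.toCR.τ * ((f.m * f.n) ^ j)⁻¹

variable (f : FR0 K G)

theorem r3_shift (k j : ℤ) : (f.m * f.n) ^ k * r3P f j * ((f.m * f.n) ^ k)⁻¹ = r3P f (k + j) := by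
  simp only [r3P, zpow_add]; group

theorem r3_sq (j : ℤ) : r3P f j * r3P f j = 1 := by rw [r3P, conj_mul, f.toCR.τ_sq]; group

theorem r3_inv (j : ℤ) : (r3P f j)⁻¹ = r3P f j := inv_eq_of_mul_eq_one_right (r3_sq f j)

theorem r3_minv : f.m⁻¹ = f.m := inv_eq_of_mul_eq_one_right f.mm

theorem r3_rho (a : OU K) (h1 : a ∈ (sQ : Subgroup (OU K))) (h2 : (OU.nu a).x1 = 0) :
    (f.m * f.n) ^ (1 : ℤ) * f.u a * ((f.m * f.n) ^ (1 : ℤ))⁻¹ = f.u (OU.mu (OU.nu a)) := by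
  rw [← f.mu _ h2, ← f.nu a h1, zpow_one, mul_inv_rev, f.toCR.n_inv, r3_minv]; group

theorem r3_0 : r3P f 0 = f.u (X4 1) := by simp [r3P, CR.τ]

theorem r3_1 : r3P f 1 = f.u (X6 1) := by
  rw [show (1 : ℤ) = 1 + 0 from rfl, ← r3_shift, r3_0, r3_rho f _ (by simp) (by simp)]
  congr 1; ext <;> simp

theorem r3_2 : r3P f 2 = f.u (X8 1) := by
  rw [show (2 : ℤ) = 1 + 1 from rfl, ← r3_shift, r3_1, r3_rho f _ (by simp) (by simp)]
  congr 1; ext <;> simp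

theorem r3_nrho (j : ℤ) : f.n * (f.m * f.n) ^ j * f.n⁻¹ = (f.m * f.n) ^ (-j) := by
  rw [← conj_zpow, zpow_neg, ← inv_zpow, mul_inv_rev, f.toCR.n_inv, r3_minv, mul_assoc, mul_assoc, f.nn, mul_one]

theorem r3_n (j : ℤ) : f.n * r3P f j * f.n⁻¹ = r3P f (-j) := by
  have := (f.toCR.comm_Z f.toCR.n_mem f.toCR.τ_mem_Z).eq
  rw [r3P, r3P, ← r3_nrho, ← mul_inv_eq_iff_eq_mul.2 this]
  nth_rw 1 [mul_inv_eq_iff_eq_mul.2 this]
  group

theorem r3_m1 : r3P f (-1) = f.u (X2 1) := by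
  rw [← r3_n, r3_1, f.toCR.bru_nu' (by simp)]
  congr 1; ext <;> simp

theorem r3_c {j k : ℤ} (h : k = j + 1 ∨ k = j + 2) : Commute (r3P f k) (r3P f j) := by
  have key : ∀ i, Commute (r3P f i) (r3P f 0) → Commute (r3P f (j + i)) (r3P f j) := fun i c => by
    have := c.conj ((f.m * f.n) ^ j)
    rwa [r3_shift, r3_shift, add_zero] at this
  rcases h with rfl | rfl
  · exact key 1 (by rw [r3_1, r3_0]; exact f.toCR.comm_Z (f.toCR.u_mem _) f.toCR.τ_mem_Z)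
  · exact key 2 (by rw [r3_2, r3_0]; exact f.toCR.comm_Z (f.toCR.u_mem _) f.toCR.τ_mem_Z)

theorem r3_4 : (f.m * f.n) ^ 4 * f.toCR.τ * ((f.m * f.n) ^ 4)⁻¹ = r3P f 4 := by
  rw [r3P, ← zpow_natCast]; rfl

variable [Finite K] [Finite G]

theorem FR0.not_tw (f : FR0 K G) (hq : Nat.card K = 2) :
    ¬ Commute (f.u (X2 1 * X6 1) * f.n) ((f.m * f.n) ^ 4 * f.toCR.τ * ((f.m * f.n) ^ 4)⁻¹) := fun h => by
  have e0 : r3P f 4 = r3P f (-1) * r3P f 1 * r3P f (-4) * (r3P f (-1) * r3P f 1)⁻¹ := by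
    rw [r3_4, map_mul, ← r3_m1, ← r3_1] at h
    rw [← r3_n f 4, ← mul_inv_cancel_right (r3P f 4) (r3P f (-1) * r3P f 1 * f.n), ← h.eq]
    nth_rw 2 [h.eq]
    group
  have e : ∀ k : ℤ, r3P f (k + 4) =
      r3P f (k + -1) * r3P f (k + 1) * r3P f (k + -4) * (r3P f (k + -1) * r3P f (k + 1))⁻¹ := fun k => by
    simp only [← r3_shift]
    rw [e0]; group
  have e2 : (r3P f (-1))⁻¹ * r3P f 2 * (r3P f (-1))⁻¹⁻¹ = r3P f (-3) * r3P f (-6) * (r3P f (-3))⁻¹ := by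
    have := e (-2)
    norm_num only at this
    rw [this, ← (r3_c f (j := -3) (k := -1) (by omega)).eq]; group
  have e1 : (r3P f 0)⁻¹ * r3P f 3 * (r3P f 0)⁻¹⁻¹ = r3P f (-2) * r3P f (-5) * (r3P f (-2))⁻¹ := by
    have := e (-1)
    norm_num only at this
    rw [this, ← (r3_c f (j := -2) (k := 0) (by omega)).eq]; group
  have c1 : Commute ((r3P f (-1))⁻¹ * r3P f 2 * (r3P f (-1))⁻¹⁻¹) (r3P f (-5)) := by
    rw [e2]
    have := r3_c f (j := -5) (k := -3) (by omega)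
    exact (this.mul_left (r3_c f (j := -6) (k := -5) (by omega)).symm).mul_left this.inv_left
  have c2 := c1.conj (r3P f (-2))
  have x0 : r3P f (-2) = (f.u (Y8 1))⁻¹ * f.n * f.u (Y8 1) := by
    rw [← r3_n, r3_2, f.toCR.n_inv, f.toCR.f20x hq]
  have m0 : r3P f (-2) ∈ f.toCR.C := by
    rw [x0]; exact mul_mem (mul_mem (inv_mem (f.toCR.u_mem _)) f.toCR.n_mem) (f.toCR.u_mem _)
  have m1 : r3P f (-1) ∈ f.toCR.C := r3_m1 f ▸ f.toCR.u_mem _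
  have c3 : Commute (r3P f (-2) * ((r3P f (-1))⁻¹ * r3P f 2 * (r3P f (-1))⁻¹⁻¹) * (r3P f (-2))⁻¹) (r3P f 0) :=
    f.toCR.comm_Z (mul_mem (mul_mem m0 (mul_mem (mul_mem (inv_mem m1) (r3_2 f ▸ f.toCR.u_mem _))
      (inv_mem (inv_mem m1)))) (inv_mem m0)) (r3_0 f ▸ f.toCR.τ_mem_Z)
  obtain ⟨w, w8, hw⟩ : ∃ w : OU K, (Y8 1 * w * (Y8 1)⁻¹).x8 = 1 ∧
      f.u w = r3P f 0 * r3P f 3 * (r3P f 0 * r3P f 3) := by
    have k : X2 1 * X8 1 * (X2 1 * X8 1) = (⟨0, 0, 0, 0, 0, 1, 1, 0, 1, 0, 0, 0⟩ : OU K) := by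
      ext <;> simp [CharTwo.add_self_eq_zero]
    refine ⟨OU.mu (OU.nu ⟨0, 0, 0, 0, 0, 1, 1, 0, 1, 0, 0, 0⟩), by simp [CharTwo.add_self_eq_zero], ?_⟩
    rw [← r3_rho f _ (by simp) (by simp), ← k, map_mul, map_mul, ← r3_m1, ← r3_2,
      show (0 : ℤ) = 1 + -1 from rfl, show (3 : ℤ) = 1 + 2 from rfl, ← r3_shift, ← r3_shift]
    group
  have c4 : Commute (r3P f (-2) * ((r3P f (-1))⁻¹ * r3P f 2 * (r3P f (-1))⁻¹⁻¹) * (r3P f (-2))⁻¹) (f.u w) := by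
    rw [← e1] at c2
    have c5 := (c3.mul_right c2).mul_right c3.inv_right
    rw [show r3P f 0 * ((r3P f 0)⁻¹ * r3P f 3 * (r3P f 0)⁻¹⁻¹) * (r3P f 0)⁻¹ = r3P f 3 by group] at c5
    rw [hw]
    exact (c3.mul_right c5).mul_right (c3.mul_right c5)
  have c6 : Commute (r3P f (-1) * ((r3P f (-2))⁻¹ * f.u w * r3P f (-2)) * (r3P f (-1))⁻¹)
      (f.u (X4 0 * X8 1)) := by
    rw [show X4 (0 : K) * X8 1 = X8 1 by ext <;> simp, ← r3_2]
    convert (c4.symm.conj (r3P f (-2))⁻¹).conj (r3P f (-1)) using 1 <;> group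
  have m2 := f.toCR.S_le_U _ ((f.toCR.cent_x8 (mul_mem (mul_mem m1 (mul_mem (mul_mem (inv_mem m0)
    (f.toCR.u_mem w)) m0)) (inv_mem m1)) 0).1 c6)
  rw [r3_m1, Subgroup.mul_mem_cancel_right _ (inv_mem (f.toCR.u_mem_U _)),
    Subgroup.mul_mem_cancel_left _ (f.toCR.u_mem_U _), r3_inv, x0] at m2
  have m3 := f.toCR.mem_Q_of (a := Y8 1 * w * (Y8 1)⁻¹) (by
    have := mul_mem (mul_mem (f.toCR.u_mem_U (Y8 1)) m2) (inv_mem (f.toCR.u_mem_U (Y8 1)))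
    rw [map_mul, map_mul, map_inv]
    convert this using 1
    group)
  exact one_ne_zero (w8.symm.trans m3.2)

theorem FR0.rel_of_n (f : FR0 K G) (h : Hy f.toCR) (hq : Nat.card K = 2)
    (hn : Commute f.n ((f.m * f.n) ^ 4 * f.toCR.τ * ((f.m * f.n) ^ 4)⁻¹)) : (f.m * f.n) ^ 8 = 1 := by
  have e0 : r3P f (-4) = r3P f 4 := by rw [← r3_n, ← r3_4, hn.eq, mul_inv_cancel_right]
  have key : ∀ j : ℤ, Commute ((f.m * f.n) ^ (8 : ℤ)) (r3P f j) := fun j => by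
    rw [Commute, SemiconjBy, ← mul_inv_eq_iff_eq_mul, r3_shift, show 8 + j = j + 4 + 4 by omega, ← r3_shift, ← e0,
      r3_shift, show j + 4 + -4 = j by omega]
  obtain ⟨a, h1, ha⟩ := f.toCR.cent_Y (h.cent_two hq (r3_0 f ▸ key 0)) (y := X6 1) (by simp) (by simp)
    (r3_1 f ▸ key 1)
  have e1 : f.n * f.u a * f.n = f.u a⁻¹ := by
    rw [map_inv, ha, ← zpow_neg, ← r3_nrho, f.toCR.n_inv]
  have e2 : f.m * f.u a * f.m = f.u a⁻¹ := by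
    rw [← e1, ha]
    calc _ = f.m * f.n * (f.n * (f.m * f.n) ^ (8 : ℤ) * f.n⁻¹) * (f.m * f.n)⁻¹ := by
          rw [mul_inv_rev, r3_minv, f.toCR.n_inv]
          calc _ = f.m * (f.n * f.n) * (f.m * f.n) ^ (8 : ℤ) * (f.n * f.n) * f.m := by rw [f.nn]; group
            _ = _ := by group
      _ = f.n * (f.m * f.n) ^ (8 : ℤ) * f.n⁻¹ := by rw [r3_nrho]; generalize f.m * f.n = ρ; group
      _ = _ := by rw [f.toCR.n_inv]
  obtain ⟨h2, h3⟩ := f.toCR.mem_Q_of ⟨_, e1.symm⟩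
  replace h1 : a.x1 = 0 := h1
  rw [f.nu a ⟨h2, h3⟩, f.toCR.u_eq] at e1
  rw [f.mu a h1, f.toCR.u_eq] at e2
  have k7 := congrArg OU.x1 e1
  have k2 := congrArg OU.y8 e2
  have k2' := congrArg OU.x8 e2
  simp [h1, h2, h3] at k7 k2 k2'
  have k3 := congrArg OU.x7 e2
  have k6 := congrArg OU.y2 e1
  simp [h1, h2, h3, k7, k2, k2'] at k3 k6
  have k6' := congrArg OU.x2 e1
  have k5 := congrArg OU.x3 e1
  have k4 := congrArg OU.y4 e2
  simp [h1, h2, h3, k7, k2, k2', k3, k6] at k6' k5 k4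
  have k4' := congrArg OU.x6 e2
  replace k4 := k4.symm
  simp [h1, h2, h3, k7, k2, k2', k3, k6, k6', k5, k4] at k4'
  rw [← zpow_natCast, show ((8 : ℕ) : ℤ) = 8 from rfl, ← ha,
    show a = 1 by ext <;> simp [h1, h2, h3, k7, k2, k2', k3, k6, k6', k5, k4, k4'], map_one]

end Cfsg.Agent.OCT
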